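import Mathlib
import Cfsg.Agent.Lib.FrobThm.Basic
import Cfsg.Agent.Lib.Hall.CoprimeSylow
import Cfsg.Agent.Lib.CycAb.Sylowq
import Cfsg.Agent.Lib.Uniq.Rank2Use

/-!
# A solvable subgroup central in every solvable subgroup containing it is central

A minimal counterexample has no nontrivial solvable normal subgroup, and the centralizer of `A` is
the unique maximal subgroup containing `A`.  It is then a Frobenius complement, and an `A`-invariant
Sylow subgroup of the Frobenius kernel contradicts the hypothesis.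
-/

set_option autoImplicit false

namespace Cfsg.Agent.Lib.SolvCent

open Subgroup Cfsg
open Cfsg.Agent.Lib.CycAb (card_lt_of_ne_top card_quot_lt card_modEq_one mem_normalizer_of_conj_mem)
open Cfsg.Agent.Lib.Core (mem_conj_smul_iff)
open scoped Pointwise

universe u

theorem solvable_comap {G : Type*} [Group G] (R : Subgroup G) [R.Normal] (hR : Group.IsSolvable R) (S : Subgroup (G ⧸ R))
    (hS : Group.IsSolvable S) : Group.IsSolvable (S.comap (QuotientGroup.mk' R)) := by
  have hle : R ≤ S.comap (QuotientGroup.mk' R) := by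
    intro r hr
    have h1 : (QuotientGroup.mk' R) r = 1 := (QuotientGroup.eq_one_iff r).mpr hr
    rw [mem_comap, h1]
    exact one_mem _
  refine Group.isSolvable_of_ker_le_range (Subgroup.inclusion hle) ((QuotientGroup.mk' R).subgroupComap S) ?_
  rintro ⟨x, hx⟩ hx1
  have h2 : (QuotientGroup.mk' R) x = 1 := congrArg Subtype.val hx1
  have h3 : x ∈ R := (QuotientGroup.eq_one_iff x).mp h2
  exact ⟨⟨x, h3⟩, rfl⟩

theorem central_of_solvable_central : ∀ (n : ℕ) (G : Type u) [Group G] [Finite G] (A : Subgroup G), Nat.card G = n →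
    Group.IsSolvable A → (∀ S : Subgroup G, A ≤ S → Group.IsSolvable S → ∀ a ∈ A, ∀ s ∈ S, a * s = s * a) →
    A ≤ center G := by
  intro n
  induction n using Nat.strong_induction_on with
  | _ n ih =>
  intro G _ _ A hn hA hc
  by_contra hnot
  have hsub : ∀ H : Subgroup G, H ≠ ⊤ → A ≤ H → ∀ a ∈ A, ∀ h ∈ H, a * h = h * a := by
    intro H hH hAH
    have hlt : Nat.card H < Nat.card G := card_lt_of_ne_top hH
    have hsolv' : Group.IsSolvable (A.subgroupOf H) :=
      Group.isSolvable_of_isSolvable_injective (f := (subgroupOfEquivOfLe hAH).toMonoidHom) (subgroupOfEquivOfLe hAH).injective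
    have hres := ih (Nat.card H) (hn ▸ hlt) H (A.subgroupOf H) rfl hsolv' (by
      intro S hS hSs a ha s hs
      have hSm : Group.IsSolvable (S.map H.subtype) :=
        Group.isSolvable_of_isSolvable_injective (f := (S.equivMapOfInjective H.subtype H.subtype_injective).symm.toMonoidHom)
          (S.equivMapOfInjective H.subtype H.subtype_injective).symm.injective
      have hle : A ≤ S.map H.subtype := by
        intro x hx
        exact ⟨⟨x, hAH hx⟩, hS (mem_subgroupOf.mpr hx), rfl⟩
      exact Subtype.ext (hc _ hle hSm a.1 (mem_subgroupOf.mp ha) s.1 ⟨s, hs, rfl⟩))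
    intro a ha h hh
    have h1 := (mem_center_iff.mp (hres (mem_subgroupOf.mpr ha : (⟨a, hAH ha⟩ : H) ∈ A.subgroupOf H))) ⟨h, hh⟩
    exact (congrArg Subtype.val h1).symm
  have hnorm : ∀ R : Subgroup G, R.Normal → Group.IsSolvable R → R = ⊥ := by
    intro R hRn hRs
    by_contra hRne
    apply hnot
    haveI := hRn
    have hlt : Nat.card (G ⧸ R) < Nat.card G := card_quot_lt hRne
    have hAm : Group.IsSolvable (A.map (QuotientGroup.mk' R)) := by
      haveI := hA
      exact Group.isSolvable_of_surjective ((QuotientGroup.mk' R).subgroupMap_surjective A)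
    have hres := ih _ (hn ▸ hlt) (G ⧸ R) (A.map (QuotientGroup.mk' R)) rfl hAm (by
      rintro S hS hSs _ ⟨a, ha, rfl⟩ s hs
      obtain ⟨g, rfl⟩ := QuotientGroup.mk'_surjective R s
      have hT := solvable_comap R hRs S hSs
      have h1 := hc (S.comap (QuotientGroup.mk' R)) (fun x hx => hS ⟨x, hx, rfl⟩) hT a ha g hs
      rw [← map_mul, ← map_mul, h1])
    intro a ha
    rw [mem_center_iff]
    intro g
    have hcomm : ∀ x ∈ ((A.map (QuotientGroup.mk' R) : Subgroup (G ⧸ R)) : Set (G ⧸ R)) ∪ {QuotientGroup.mk' R g},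
        ∀ y ∈ ((A.map (QuotientGroup.mk' R) : Subgroup (G ⧸ R)) : Set (G ⧸ R)) ∪ {QuotientGroup.mk' R g}, x * y = y * x := by
      rintro x (hx | hx) y (hy | hy)
      · exact (mem_center_iff.mp (hres hx) y).symm
      · exact (mem_center_iff.mp (hres hx) y).symm
      · exact mem_center_iff.mp (hres hy) x
      · rw [Set.mem_singleton_iff] at hx hy
        rw [hx, hy]
    have hSs : Group.IsSolvable (closure (((A.map (QuotientGroup.mk' R) : Subgroup (G ⧸ R)) : Set (G ⧸ R)) ∪ {QuotientGroup.mk' R g})) :=
      Group.isSolvable_of_comm (fun a b => (Subgroup.closureCommGroupOfComm hcomm).mul_comm a b)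
    have hT := solvable_comap R hRs _ hSs
    have hAT : A ≤ (closure (((A.map (QuotientGroup.mk' R) : Subgroup (G ⧸ R)) : Set (G ⧸ R)) ∪ {QuotientGroup.mk' R g})).comap (QuotientGroup.mk' R) := by
      intro x hx
      exact subset_closure (Or.inl ⟨x, hx, rfl⟩)
    have hgT : g ∈ (closure (((A.map (QuotientGroup.mk' R) : Subgroup (G ⧸ R)) : Set (G ⧸ R)) ∪ {QuotientGroup.mk' R g})).comap (QuotientGroup.mk' R) :=
      subset_closure (Or.inr rfl)
    exact (hc _ hAT hT a ha g hgT).symm
  have hcenter : center G = ⊥ := hnorm _ inferInstance (Group.isSolvable_of_comm (fun a b => Subtype.ext (mem_center_iff.mp b.2 a.1)))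
  have hAab : ∀ a ∈ A, ∀ b ∈ A, a * b = b * a := hc A le_rfl hA
  have hAbot : A ≠ ⊥ := by
    rintro rfl
    exact hnot bot_le
  have hAM : A ≤ centralizer (A : Set G) := fun a ha => mem_centralizer_iff.mpr (fun b hb => hAab b hb a ha)
  have hMtop : centralizer (A : Set G) ≠ ⊤ := by
    intro h1
    apply hnot
    intro a ha
    rw [mem_center_iff]
    intro g
    have h2 : g ∈ centralizer (A : Set G) := by
      rw [h1]
      exact mem_top g
    exact (mem_centralizer_iff.mp h2 a ha).symm ▸ rfl
  have hmax : ∀ H : Subgroup G, H ≠ ⊤ → A ≤ H → H ≤ centralizer (A : Set G) := fun H hH hAH h hh =>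
    mem_centralizer_iff.mpr (fun b hb => hsub H hH hAH b hb h hh)
  have hNM : normalizer (centralizer (A : Set G) : Set G) ≤ centralizer (A : Set G) := by
    apply hmax _ _ (hAM.trans le_normalizer)
    intro h1
    haveI hMn : (centralizer (A : Set G)).Normal := normalizer_eq_top_iff.mp h1
    have hR := hnorm (centralizer ((centralizer (A : Set G) : Subgroup G) : Set G) ⊓ centralizer (A : Set G)) inferInstance
      (Group.isSolvable_of_comm (by
        rintro ⟨x, hx1, hx2⟩ ⟨y, hy1, hy2⟩
        apply Subtype.ext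
        exact (mem_centralizer_iff.mp hx1 y hy2).symm))
    apply hAbot
    rw [eq_bot_iff, ← hR]
    intro a ha
    refine ⟨mem_centralizer_iff.mpr fun m hm => (mem_centralizer_iff.mp hm a ha).symm, hAM ha⟩
  have hTI : ∀ g : G, g ∉ centralizer (A : Set G) →
      centralizer (A : Set G) ⊓ (MulAut.conj g • centralizer (A : Set G)) = ⊥ := by
    intro g hg
    have hex : ∃ a ∈ A, g * a * g⁻¹ ∉ centralizer (A : Set G) := by
      by_contra hcon
      push Not at hcon
      apply hg
      have h1 : g⁻¹ ∈ normalizer (centralizer (A : Set G) : Set G) := by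
        apply mem_normalizer_of_conj_mem
        have hK : MulAut.conj g⁻¹ • centralizer (A : Set G) ≤ centralizer (A : Set G) := by
          apply hmax
          · intro h2
            apply hMtop
            rw [eq_top_iff]
            intro y _
            have h3 : g⁻¹ * y * g ∈ MulAut.conj g⁻¹ • centralizer (A : Set G) := by
              rw [h2]
              exact mem_top _
            rw [mem_conj_smul_iff] at h3
            have h4 : g⁻¹⁻¹ * (g⁻¹ * y * g) * g⁻¹ = y := by group
            rwa [h4] at h3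
          · intro a ha
            rw [mem_conj_smul_iff]
            have h4 : g⁻¹⁻¹ * a * g⁻¹ = g * a * g⁻¹ := by group
            rw [h4]
            exact hcon a ha
        intro m hm
        apply hK
        rw [mem_conj_smul_iff]
        have h4 : g⁻¹⁻¹ * (g⁻¹ * m * g⁻¹⁻¹) * g⁻¹ = m := by group
        rwa [h4]
      have h2 := hNM h1
      simpa using inv_mem h2
    obtain ⟨a₀, ha₀, hb⟩ := hex
    have hJ : A ⊔ (MulAut.conj g • A) = ⊤ := by
      by_contra hJ
      apply hb
      apply hmax _ hJ le_sup_left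
      apply mem_sup_right
      rw [mem_conj_smul_iff]
      have h4 : g⁻¹ * (g * a₀ * g⁻¹) * g = a₀ := by group
      rwa [h4]
    rw [eq_bot_iff]
    rintro x ⟨hx1, hx2⟩
    have hx2' : g⁻¹ * x * g ∈ centralizer (A : Set G) := mem_conj_smul_iff.mp hx2
    have hle : A ⊔ (MulAut.conj g • A) ≤ centralizer ({x} : Set G) := by
      apply sup_le
      · intro a ha
        rw [mem_centralizer_singleton_iff]
        exact mem_centralizer_iff.mp hx1 a ha
      · intro b hb'
        rw [mem_centralizer_singleton_iff]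
        have hb'' := mem_conj_smul_iff.mp hb'
        have h5 := mem_centralizer_iff.mp hx2' _ hb''
        -- `(g⁻¹ b g) (g⁻¹ x g) = (g⁻¹ x g) (g⁻¹ b g)`
        have h6 : g⁻¹ * (b * x) * g = g⁻¹ * (x * b) * g := by
          calc g⁻¹ * (b * x) * g = (g⁻¹ * b * g) * (g⁻¹ * x * g) := by group
            _ = (g⁻¹ * x * g) * (g⁻¹ * b * g) := h5
            _ = _ := by group
        exact mul_left_cancel (mul_right_cancel h6)
    rw [hJ] at hle
    have hxc : x ∈ center G := by
      rw [mem_center_iff]
      intro y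
      exact mem_centralizer_singleton_iff.mp (hle (mem_top y))
    rw [hcenter] at hxc
    exact hxc
  have hMbot : centralizer (A : Set G) ≠ ⊥ := by
    intro h1
    apply hAbot
    rw [eq_bot_iff, ← h1]
    exact hAM
  have hF : IsFrobeniusComplement (centralizer (A : Set G)) := ⟨hMbot, hMtop, hTI⟩
  obtain ⟨N, -, hNn, hcompl⟩ := Cfsg.Agent.Lib.FrobThm.frobenius_theorem _ hF
  have hNbot : N ≠ ⊥ := by
    rintro rfl
    have h1 := hcompl.card_mul_card
    rw [Subgroup.card_bot, one_mul] at h1
    have h2 := card_lt_of_ne_top hMtop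
    omega
  have hfpf : ∀ a ∈ A, a ≠ 1 → ∀ n ∈ N, n * a = a * n → n = 1 := by
    intro a ha ha1 n hn' hna
    by_cases hnM : n ∈ centralizer (A : Set G)
    · exact (Subgroup.disjoint_def.mp hcompl.disjoint) hn' hnM
    · exfalso
      apply ha1
      have h1 : a ∈ centralizer (A : Set G) ⊓ (MulAut.conj n • centralizer (A : Set G)) := by
        refine Subgroup.mem_inf.mpr ⟨hAM ha, ?_⟩
        rw [mem_conj_smul_iff]
        have h2 : n⁻¹ * a * n = a := by
          rw [mul_assoc, ← hna, ← mul_assoc, inv_mul_cancel, one_mul]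
        rw [h2]
        exact hAM ha
      rw [hTI n hnM] at h1
      exact h1
  have hcop : (Nat.card A).Coprime (Nat.card N) := by
    by_contra hcon
    obtain ⟨q, hq, hq1, hq2⟩ := Nat.Prime.not_coprime_iff_dvd.mp hcon
    haveI : Fact q.Prime := ⟨hq⟩
    obtain ⟨u, hu⟩ := exists_prime_orderOf_dvd_card' q hq1
    have hu' : orderOf (u : G) = q := by rw [Subgroup.orderOf_coe, hu]
    have hu1 : (u : G) ≠ 1 := by
      intro h1
      rw [h1, orderOf_one] at hu'
      exact hq.one_lt.ne hu'
    have hm := card_modEq_one (A := N) (u := (u : G)) (fun a ha => hNn.conj_mem a ha u) hu'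
      (fun a ha hau => hfpf u u.2 hu1 a ha hau)
    have h1 : Nat.card N % q = 0 := Nat.mod_eq_zero_of_dvd hq2
    have h2 : Nat.card N % q = 1 % q := hm
    rw [h1, Nat.mod_eq_of_lt hq.one_lt] at h2
    omega
  obtain ⟨q, hq, hqd⟩ : ∃ q, q.Prime ∧ q ∣ Nat.card N := by
    apply Nat.exists_prime_and_dvd
    intro h1
    exact hNbot ((Subgroup.card_eq_one).mp h1)
  haveI : Fact q.Prime := ⟨hq⟩
  have hAN : A ≤ normalizer (N : Set G) := by
    rw [normalizer_eq_top_iff.mpr hNn]
    exact le_top
  obtain ⟨P, hP⟩ := Cfsg.Agent.Lib.Hall.exists_invariant_sylow A N hAN hcop (Or.inl hA) q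
  have hQs : Group.IsSolvable ((P : Subgroup N).map N.subtype) := by
    have h1 : IsPGroup q ((P : Subgroup N).map N.subtype) := P.isPGroup'.map _
    haveI := h1.isNilpotent
    infer_instance
  have hT := Cfsg.Agent.Lib.Uniq.isSolvable_sup_of_normalizer hP hQs hA
  have hPne : (P : Subgroup N) ≠ ⊥ := P.ne_bot_of_dvd_card hqd
  obtain ⟨n, hn1⟩ := Subgroup.ne_bot_iff_exists_ne_one.mp hPne
  obtain ⟨a₁, ha₁⟩ := Subgroup.ne_bot_iff_exists_ne_one.mp hAbot
  have hn1' : ((n : N) : G) ≠ 1 := by
    intro h1
    apply hn1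
    apply Subtype.ext
    apply Subtype.ext
    exact h1
  have ha₁' : (a₁ : G) ≠ 1 := by
    intro h1
    apply ha₁
    exact Subtype.ext h1
  have hcomm := hc _ (le_sup_right : A ≤ (P : Subgroup N).map N.subtype ⊔ A) hT a₁ a₁.2 ((n : N) : G)
    (mem_sup_left ⟨n, n.2, rfl⟩)
  exact hn1' (hfpf a₁ a₁.2 ha₁' _ (n : N).2 hcomm.symm)

end Cfsg.Agent.Lib.SolvCent
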